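import Cfsg.Agent.SpecEight.Main

/-!
Isometries for the translated elements: a unipotent part of even parity with a non-vanishing orbit sum.
-/

set_option autoImplicit false

namespace Cfsg.Agent.SpecEight

open Module Cfsg.Agent.Forms Cfsg.Agent.Linear.OrthTypes Cfsg.Agent.KnownB.Proj.Orth

variable {F V W U : Type*} [Field F] [AddCommGroup V] [Module F V] [AddCommGroup W] [Module F W]
  [AddCommGroup U] [Module F U]

/-- The orbit sum of a vector. -/
def orbSum (g : V ≃ₗ[F] V) (n : ℕ) (w : V) : V := ∑ i ∈ Finset.range n, (g ^ i) w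

/-- A unipotent part of order `P`, rank `r` and non-vanishing orbit sum. -/
def UP (Q : QuadraticForm F V) (P r : ℕ) : Prop :=
  ∃ (u : V ≃ₗ[F] V) (w : V), (∀ v, Q (u v) = Q v) ∧ orderOf u = P ∧
    finrank F (LinearMap.range ((u : Module.End F V) - 1)) = r ∧ orbSum u P w ≠ 0

/-- A unipotent part commuting with an odd part fixing the vector. -/
def RT (Q : QuadraticForm F V) (n : ℕ) : Prop :=
  ∃ (h u : V ≃ₗ[F] V) (w : V), (∀ v, Q (h v) = Q v) ∧ (∀ v, Q (u v) = Q v) ∧ Commute h u ∧
    Odd (orderOf h) ∧ (orderOf h).Coprime (orderOf u) ∧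
    Even (finrank F (LinearMap.range ((u : Module.End F V) - 1))) ∧ h w = w ∧
    orbSum u (orderOf u) w ≠ 0 ∧ n ∣ 2 * (orderOf h * orderOf u)

theorem range_congr (e : V ≃ₗ[F] W) (g : V ≃ₗ[F] V) :
    finrank F (LinearMap.range ((congrEquiv e g : Module.End F W) - 1)) =
      finrank F (LinearMap.range ((g : Module.End F V) - 1)) := by
  have h : LinearMap.range ((congrEquiv e g : Module.End F W) - 1) =
      Submodule.map (e : V →ₗ[F] W) (LinearMap.range ((g : Module.End F V) - 1)) := by
    ext y
    constructor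
    · rintro ⟨x, rfl⟩
      exact ⟨g (e.symm x) - e.symm x, ⟨e.symm x, rfl⟩, by simp [congrEquiv]⟩
    · rintro ⟨_, ⟨x, rfl⟩, rfl⟩
      exact ⟨e x, by simp [congrEquiv]⟩
  rw [h, LinearEquiv.finrank_map_eq]

theorem orbSum_congr (e : V ≃ₗ[F] W) (g : V ≃ₗ[F] V) (n : ℕ) (w : V) :
    orbSum (congrEquiv e g) n (e w) = e (orbSum g n w) := by
  simp only [orbSum, map_sum]
  refine Finset.sum_congr rfl fun i _ => ?_
  rw [← map_pow]
  simp [congrEquiv]

theorem UP.congr {Q : QuadraticForm F V} {Q' : QuadraticForm F W} {P r : ℕ} (h : UP Q P r)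
    (e : V ≃ₗ[F] W) (he : ∀ x, Q' (e x) = Q x) : UP Q' P r := by
  obtain ⟨u, w, hu, hP, hr, hw⟩ := h
  refine ⟨congrEquiv e u, e w, fun v => ?_, ?_, (range_congr e u).trans hr, ?_⟩
  · show Q' (e (u (e.symm v))) = Q' v
    rw [he, hu, ← he, e.apply_symm_apply]
  · rw [MulEquiv.orderOf_eq, hP]
  · rw [orbSum_congr]; simpa using hw

theorem RT.congr {Q : QuadraticForm F V} {Q' : QuadraticForm F W} {n : ℕ} (h : RT Q n)
    (e : V ≃ₗ[F] W) (he : ∀ x, Q' (e x) = Q x) : RT Q' n := by
  obtain ⟨h, u, w, hh, hu, hc, ho, hco, hr, hfix, hw, hn⟩ := h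
  refine ⟨congrEquiv e h, congrEquiv e u, e w, fun v => ?_, fun v => ?_, hc.map (congrEquiv e),
    by rwa [MulEquiv.orderOf_eq], by rwa [MulEquiv.orderOf_eq, MulEquiv.orderOf_eq],
    (range_congr e u).symm ▸ hr, ?_, ?_, by rwa [MulEquiv.orderOf_eq, MulEquiv.orderOf_eq]⟩
  · show Q' (e (h (e.symm v))) = Q' v
    rw [he, hh, ← he, e.apply_symm_apply]
  · show Q' (e (u (e.symm v))) = Q' v
    rw [he, hu, ← he, e.apply_symm_apply]
  · simp [congrEquiv, hfix]
  · rw [MulEquiv.orderOf_eq, orbSum_congr]; simpa using hw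

theorem range_prod [FiniteDimensional F V] [FiniteDimensional F W] (g : V ≃ₗ[F] V) (g' : W ≃ₗ[F] W) :
    finrank F (LinearMap.range ((prodHom F V W (g, g') : Module.End F (V × W)) - 1)) =
      finrank F (LinearMap.range ((g : Module.End F V) - 1)) +
        finrank F (LinearMap.range ((g' : Module.End F W) - 1)) := by
  have h : ((prodHom F V W (g, g') : Module.End F (V × W)) - 1) =
      LinearMap.prodMap ((g : Module.End F V) - 1) ((g' : Module.End F W) - 1) := by
    refine LinearMap.ext fun x => ?_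
    simp [prodHom]
    rfl
  rw [h, LinearMap.range_prodMap, ← Module.finrank_prod]
  exact LinearEquiv.finrank_eq
    { toFun := fun x => (⟨x.1.1, x.2.1⟩, ⟨x.1.2, x.2.2⟩)
      invFun := fun x => ⟨(x.1.1, x.2.1), x.1.2, x.2.2⟩
      map_add' := fun _ _ => rfl
      map_smul' := fun _ _ => rfl }

theorem orbSum_prod (g : V ≃ₗ[F] V) (g' : W ≃ₗ[F] W) (n : ℕ) (v : V) (w : W) :
    orbSum (prodHom F V W (g, g')) n (v, w) = (orbSum g n v, orbSum g' n w) := by
  simp only [orbSum, ← map_pow]
  induction n with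
  | zero => rfl
  | succ n ih => rw [Finset.sum_range_succ, Finset.sum_range_succ, Finset.sum_range_succ, ih]; rfl

/-- Orthogonal sums of unipotent parts. -/
theorem UP.prod [FiniteDimensional F V] [FiniteDimensional F W] {Q : QuadraticForm F V}
    {Q' : QuadraticForm F W} {P P' r r' : ℕ} (h : UP Q P r) (h' : UP Q' P' r') (hPP : P' ∣ P) :
    UP (QuadraticMap.prod Q Q') P (r + r') := by
  obtain ⟨u, w, hu, hP, hr, hw⟩ := h
  obtain ⟨u', w', hu', hP', hr', -⟩ := h'
  refine ⟨prodHom F V W (u, u'), (w, 0), fun v => ?_, ?_, by rw [range_prod, hr, hr'], ?_⟩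
  · show QuadraticMap.prod Q Q' (u v.1, u' v.2) = _
    simp [hu, hu']
  · rw [orderOf_injective (prodHom F V W) prodHom_injective, Prod.orderOf, hP, hP']
    exact Nat.lcm_eq_left hPP
  · rw [orbSum_prod]
    exact fun e => hw (congrArg Prod.fst e)

/-- A torus next to a unipotent part, on the first factor. -/
theorem RT.prod_left [Finite V] [FiniteDimensional F V] [FiniteDimensional F W] {Q : QuadraticForm F V}
    {Q' : QuadraticForm F W} {m j r : ℕ} (h : Real Q m) (hm : Odd m) (h' : UP Q' (2 ^ j) r)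
    (hr : Even r) {n : ℕ} (hn : n ∣ 2 * (m * 2 ^ j)) : RT (QuadraticMap.prod Q Q') n := by
  obtain ⟨g, hg, hmg⟩ := h
  obtain ⟨u, w, hu, hP, hr', hw⟩ := h'
  haveI : Finite (V ≃ₗ[F] V) := Finite.of_injective _ DFunLike.coe_injective
  set g' := g ^ (orderOf g / m) with hg'
  have ho : orderOf g' = m := orderOf_pow_orderOf_div (orderOf_pos g).ne' hmg
  have hg'Q : ∀ v, Q (g' v) = Q v := by
    intro v
    rw [hg']
    induction orderOf g / m with
    | zero => rfl
    | succ k ih => rw [pow_succ']; exact (hg _).trans ih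
  have hh : orderOf (prodHom F V W (g', 1)) = m := by
    rw [orderOf_injective (prodHom F V W) prodHom_injective, Prod.orderOf, orderOf_one, Nat.lcm_one_right, ho]
  have huo : orderOf (prodHom F V W (1, u)) = 2 ^ j := by
    rw [orderOf_injective (prodHom F V W) prodHom_injective, Prod.orderOf, orderOf_one, Nat.lcm_one_left, hP]
  refine ⟨prodHom F V W (g', 1), prodHom F V W (1, u), (0, w), fun v => ?_, fun v => ?_, ?_,
    by rw [hh]; exact hm, ?_, ?_, ?_, ?_, by rw [hh, huo]; exact hn⟩
  · show QuadraticMap.prod Q Q' (g' v.1, v.2) = _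
    simp [hg'Q]
  · show QuadraticMap.prod Q Q' (v.1, u v.2) = _
    simp [hu]
  · exact Commute.map (Prod.ext (by simp) (by simp)) (prodHom F V W)
  · rw [hh, huo]; exact Nat.Coprime.pow_right _ (Nat.coprime_two_right.2 hm)
  · rw [range_prod, hr',
      show ((1 : V ≃ₗ[F] V) : Module.End F V) - 1 = 0 from sub_self _, LinearMap.range_zero,
      finrank_bot, zero_add]
    exact hr
  · show (g' 0, w) = ((0 : V), w)
    rw [map_zero]
  · rw [huo, orbSum_prod]
    exact fun e => hw (congrArg Prod.snd e)

/-- The swapped version. -/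
theorem RT.prod_right [Finite W] [FiniteDimensional F V] [FiniteDimensional F W]
    {Q : QuadraticForm F V} {Q' : QuadraticForm F W} {m j r : ℕ} (h : UP Q (2 ^ j) r)
    (h' : Real Q' m) (hm : Odd m) (hr : Even r) {n : ℕ} (hn : n ∣ 2 * (m * 2 ^ j)) :
    RT (QuadraticMap.prod Q Q') n :=
  (RT.prod_left h' hm h hr hn).congr (LinearEquiv.prodComm F W V) fun x => by simp [add_comm]

/-- The trivial unipotent part. -/
theorem up_one (Q : QuadraticForm F V) {w : V} (hw : w ≠ 0) : UP Q (2 ^ 0) 0 := by
  refine ⟨1, w, fun _ => rfl, by rw [orderOf_one, pow_zero], ?_, ?_⟩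
  · rw [show ((1 : V ≃ₗ[F] V) : Module.End F V) - 1 = 0 from sub_self _, LinearMap.range_zero,
      finrank_bot]
  · simpa [orbSum] using hw

/-- The coordinates splitting hyperbolic planes off the minus model. -/
theorem exists_minus_split (j k : ℕ) (a b : F) :
    ∃ e : ((Fin j ⊕ Fin j → F) × ((Fin k ⊕ Fin k) ⊕ Fin 2 → F)) ≃ₗ[F]
        ((Fin (j + k) ⊕ Fin (j + k)) ⊕ Fin 2 → F),
      ∀ x, qMinus (j + k) F a b (e x) = QuadraticMap.prod (qPlus j F) (qMinus k F a b) x := by
  let e : ((Fin j ⊕ Fin j → F) × ((Fin k ⊕ Fin k) ⊕ Fin 2 → F)) ≃ₗ[F]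
      ((Fin (j + k) ⊕ Fin (j + k)) ⊕ Fin 2 → F) :=
    { toFun := fun p => Sum.elim (Sum.elim
          (Fin.addCases (fun i => p.1 (Sum.inl i)) fun i => p.2 (Sum.inl (Sum.inl i)))
          (Fin.addCases (fun i => p.1 (Sum.inr i)) fun i => p.2 (Sum.inl (Sum.inr i))))
          fun i => p.2 (Sum.inr i)
      invFun := fun v =>
        (Sum.elim (fun i => v (Sum.inl (Sum.inl (Fin.castAdd k i))))
          (fun i => v (Sum.inl (Sum.inr (Fin.castAdd k i)))),
         Sum.elim (Sum.elim (fun i => v (Sum.inl (Sum.inl (Fin.natAdd j i))))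
          (fun i => v (Sum.inl (Sum.inr (Fin.natAdd j i))))) fun i => v (Sum.inr i))
      map_add' := fun x y => by
        funext s
        rcases s with (s | s) | s
        · refine Fin.addCases (fun i => ?_) (fun i => ?_) s <;> simp
        · refine Fin.addCases (fun i => ?_) (fun i => ?_) s <;> simp
        · simp
      map_smul' := fun c x => by
        funext s
        rcases s with (s | s) | s
        · refine Fin.addCases (fun i => ?_) (fun i => ?_) s <;> simp
        · refine Fin.addCases (fun i => ?_) (fun i => ?_) s <;> simp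
        · simp
      left_inv := fun p => by
        refine Prod.ext (funext fun s => ?_) (funext fun s => ?_)
        · rcases s with s | s <;> simp
        · rcases s with (s | s) | s <;> simp
      right_inv := fun v => by
        funext s
        rcases s with (s | s) | s
        · refine Fin.addCases (fun i => ?_) (fun i => ?_) s <;> simp
        · refine Fin.addCases (fun i => ?_) (fun i => ?_) s <;> simp
        · simp }
  refine ⟨e, fun x => ?_⟩
  simp [e, Cfsg.quadFormMinus, Cfsg.quadFormPlus, Fin.sum_univ_add]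
  ring

/-- The coordinates splitting hyperbolic models. -/
theorem exists_plus_split (j k : ℕ) :
    ∃ e : ((Fin j ⊕ Fin j → F) × (Fin k ⊕ Fin k → F)) ≃ₗ[F] (Fin (j + k) ⊕ Fin (j + k) → F),
      ∀ x, qPlus (j + k) F (e x) = QuadraticMap.prod (qPlus j F) (qPlus k F) x := by
  let e : ((Fin j ⊕ Fin j → F) × (Fin k ⊕ Fin k → F)) ≃ₗ[F] (Fin (j + k) ⊕ Fin (j + k) → F) :=
    { toFun := fun p => Sum.elim
          (Fin.addCases (fun i => p.1 (Sum.inl i)) fun i => p.2 (Sum.inl i))
          (Fin.addCases (fun i => p.1 (Sum.inr i)) fun i => p.2 (Sum.inr i))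
      invFun := fun v =>
        (Sum.elim (fun i => v (Sum.inl (Fin.castAdd k i))) (fun i => v (Sum.inr (Fin.castAdd k i))),
         Sum.elim (fun i => v (Sum.inl (Fin.natAdd j i))) (fun i => v (Sum.inr (Fin.natAdd j i))))
      map_add' := fun x y => by
        funext s
        rcases s with s | s <;> refine Fin.addCases (fun i => ?_) (fun i => ?_) s <;> simp
      map_smul' := fun c x => by
        funext s
        rcases s with s | s <;> refine Fin.addCases (fun i => ?_) (fun i => ?_) s <;> simp
      left_inv := fun p => by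
        refine Prod.ext (funext fun s => ?_) (funext fun s => ?_) <;> rcases s with s | s <;> simp
      right_inv := fun v => by
        funext s
        rcases s with s | s <;> refine Fin.addCases (fun i => ?_) (fun i => ?_) s <;> simp }
  refine ⟨e, fun x => ?_⟩
  simp [e, Cfsg.quadFormPlus, Fin.sum_univ_add]

variable [CharP F 2]

/-- The reflection of the plane. -/
theorem up_minus_zero {a b : F} (ha : a ≠ 0) : UP (qMinus 0 F a b) 2 1 := by
  let T : ((Fin 0 ⊕ Fin 0) ⊕ Fin 2 → F) ≃ₗ[F] ((Fin 0 ⊕ Fin 0) ⊕ Fin 2 → F) :=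
    { toFun := fun v => Sum.elim (fun i => v (Sum.inl i))
        ![v (Sum.inr 0) + a * v (Sum.inr 1), v (Sum.inr 1)]
      invFun := fun v => Sum.elim (fun i => v (Sum.inl i))
        ![v (Sum.inr 0) + a * v (Sum.inr 1), v (Sum.inr 1)]
      map_add' := fun x y => by
        funext s; rcases s with s | s
        · simp
        · fin_cases s <;> simp <;> ring
      map_smul' := fun c x => by
        funext s; rcases s with s | s
        · simp
        · fin_cases s <;> simp <;> ring
      left_inv := fun v => by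
        funext s; rcases s with s | s
        · simp
        · fin_cases s <;> simp [add_assoc, CharTwo.add_self_eq_zero]
      right_inv := fun v => by
        funext s; rcases s with s | s
        · simp
        · fin_cases s <;> simp [add_assoc, CharTwo.add_self_eq_zero] }
  refine ⟨T, Pi.single (Sum.inr 1) 1, fun v => ?_, orderOf_eq_prime ?_ ?_, ?_, ?_⟩
  · simp [T, Cfsg.quadFormMinus]
    ring_nf
    simp [CharTwo.two_eq_zero, three_eq]
  · exact LinearEquiv.ext fun v => by rw [sq]; exact T.left_inv v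
  · intro h
    have := congrFun (LinearEquiv.congr_fun h (Pi.single (Sum.inr 1) 1)) (Sum.inr 0)
    simp [T, ha] at this
  · have hr : LinearMap.range ((T : Module.End F _) - 1) =
        Submodule.span F {(Pi.single (Sum.inr 0) 1 : (Fin 0 ⊕ Fin 0) ⊕ Fin 2 → F)} := by
      ext y
      rw [Submodule.mem_span_singleton, LinearMap.mem_range]
      constructor
      · rintro ⟨v, rfl⟩
        refine ⟨a * v (Sum.inr 1), funext fun s => ?_⟩
        rcases s with s | s
        · simp [T]
        · fin_cases s <;> simp [T]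
      · rintro ⟨c, rfl⟩
        refine ⟨Pi.single (Sum.inr 1) (c / a), funext fun s => ?_⟩
        rcases s with s | s
        · simp [T]
        · fin_cases s <;> simp [T, mul_div_cancel₀ _ ha]
    rw [hr, finrank_span_singleton]
    simp
  · intro h
    have := congrFun h (Sum.inr 0)
    simp [orbSum, Finset.sum_range_succ, T, ha] at this

/-- The single block of order four. -/
theorem up_minus_one {a b : F} (ha : a ≠ 0) : UP (qMinus 1 F a b) 4 3 := by
  let g : Module.End F ((Fin 1 ⊕ Fin 1) ⊕ Fin 2 → F) :=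
    { toFun := fun v => Sum.elim (Sum.elim
          (fun i => v (Sum.inl (Sum.inl i)) + a * v (Sum.inr 0) + b * v (Sum.inl (Sum.inr 0)))
          (fun i => v (Sum.inl (Sum.inr i))))
        ![v (Sum.inr 0) + a * (v (Sum.inr 1) + v (Sum.inl (Sum.inr 0))),
          v (Sum.inr 1) + v (Sum.inl (Sum.inr 0))]
      map_add' := fun x y => by
        funext s; rcases s with (s | s) | s
        · simp; ring
        · simp
        · fin_cases s <;> simp <;> ring
      map_smul' := fun c x => by
        funext s; rcases s with (s | s) | s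
        · simp; ring
        · simp
        · fin_cases s <;> simp <;> ring }
  have h4 : g ^ 2 ^ 2 = 1 := by
    refine LinearMap.ext fun v => funext fun s => ?_
    rw [show 2 ^ 2 = 4 from rfl, show g ^ 4 = g * (g * (g * g)) by
      rw [← pow_two, ← pow_succ', ← pow_succ'], Module.End.one_apply]
    simp only [Module.End.mul_apply]
    rcases s with (s | s) | s
    · fin_cases s
      simp [g]
      ring_nf
      simp [CharTwo.two_eq_zero, three_eq, four_eq, six_eq, ten_eq]
    · simp [g]
    · fin_cases s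
      · simp [g]
        ring_nf
        simp [CharTwo.two_eq_zero, three_eq, four_eq, six_eq, ten_eq]
      · simp [g]
        ring_nf
        simp [CharTwo.two_eq_zero, three_eq, four_eq, six_eq, ten_eq]
  have h2 : g ^ 2 ^ 1 ≠ 1 := by
    intro h
    rw [pow_one, sq] at h
    have := congrFun (LinearMap.congr_fun h (Pi.single (Sum.inr 1) 1)) (Sum.inl (Sum.inl 0))
    simp [g, ha] at this
  obtain ⟨u, hu⟩ : IsUnit g := IsUnit.of_pow_eq_one h4 (by norm_num)
  set T := LinearMap.GeneralLinearGroup.generalLinearEquiv F _ u with hT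
  have hTv : ∀ v, T v = g v := fun v => by rw [← hu]; rfl
  have hTg : (T : Module.End F _) = g := LinearMap.ext hTv
  have hord : orderOf T = 4 := by
    rw [← orderOf_end, hTg]
    exact orderOf_eq_prime_pow h2 h4
  refine ⟨T, Pi.single (Sum.inl (Sum.inr 0)) 1, fun v => ?_, hord, ?_, ?_⟩
  · rw [hTv]
    simp [g, Cfsg.quadFormMinus]
    ring_nf
    simp [CharTwo.two_eq_zero, three_eq, four_eq, six_eq, ten_eq]
  · rw [hTg]
    let p : ((Fin 1 ⊕ Fin 1) ⊕ Fin 2 → F) →ₗ[F] F := LinearMap.proj (Sum.inl (Sum.inr 0))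
    have hr : LinearMap.range (g - 1) = LinearMap.ker p := by
      ext y
      rw [LinearMap.mem_range, LinearMap.mem_ker]
      constructor
      · rintro ⟨v, rfl⟩
        simp [g, p]
      · intro hy
        refine ⟨Sum.elim (Sum.elim (fun _ => 0) (fun _ => y (Sum.inr 1)))
          ![(y (Sum.inl (Sum.inl 0)) + b * y (Sum.inr 1)) / a, y (Sum.inr 0) / a + y (Sum.inr 1)],
          funext fun s => ?_⟩
        rcases s with (s | s) | s
        · fin_cases s
          simp [g]
          field_simp
          ring_nf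
          simp [CharTwo.two_eq_zero]
        · fin_cases s
          simp [g]
          exact hy.symm
        · fin_cases s
          · simp [g]
            field_simp
            ring_nf
            simp [CharTwo.two_eq_zero]
          · simp [g]
    have hsurj : Function.Surjective p := fun c => ⟨fun _ => c, rfl⟩
    have := LinearMap.finrank_range_add_finrank_ker p
    rw [LinearMap.range_eq_top.2 hsurj, finrank_top, Module.finrank_self, Module.finrank_pi] at this
    simp at this
    rw [hr]
    omega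
  · intro h
    have := congrFun h (Sum.inl (Sum.inl 0))
    simp [orbSum, Finset.sum_range_succ, pow_succ, LinearEquiv.mul_apply, hTv, g] at this
    ring_nf at this
    simp [CharTwo.two_eq_zero, three_eq, four_eq, six_eq, ten_eq, ha] at this
    rw [show (5 : F) = 2 * 2 + 1 by norm_num, CharTwo.two_eq_zero] at this
    simp at this

/-- The hyperbolic models as minus models with an isotropic plane. -/
theorem exists_plus_iso (k : ℕ) :
    ∃ e : ((Fin k ⊕ Fin k) ⊕ Fin 2 → F) ≃ₗ[F] (Fin (k + 1) ⊕ Fin (k + 1) → F),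
      ∀ v, qPlus (k + 1) F (e v) = qMinus k F (1 : F) 0 v := by
  let e : ((Fin k ⊕ Fin k) ⊕ Fin 2 → F) ≃ₗ[F] (Fin (k + 1) ⊕ Fin (k + 1) → F) :=
    { toFun := fun v => Sum.elim
        (Fin.snoc (fun i => v (Sum.inl (Sum.inl i))) (v (Sum.inr 0)))
        (Fin.snoc (fun i => v (Sum.inl (Sum.inr i))) (v (Sum.inr 0) + v (Sum.inr 1)))
      invFun := fun w => Sum.elim
        (Sum.elim (fun i => w (Sum.inl i.castSucc)) (fun i => w (Sum.inr i.castSucc)))
        ![w (Sum.inl (Fin.last k)), w (Sum.inl (Fin.last k)) + w (Sum.inr (Fin.last k))]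
      map_add' := fun x y => by
        funext s
        rcases s with s | s <;> induction s using Fin.lastCases <;> simp <;> ring
      map_smul' := fun c x => by
        funext s
        rcases s with s | s <;> induction s using Fin.lastCases <;> simp <;> ring
      left_inv := fun v => by
        funext s
        rcases s with (s | s) | s
        · simp
        · simp
        · fin_cases s <;> simp [← add_assoc, CharTwo.add_self_eq_zero]
      right_inv := fun w => by
        funext s
        rcases s with s | s <;> induction s using Fin.lastCases <;>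
          simp [← add_assoc, CharTwo.add_self_eq_zero] }
  refine ⟨e, fun v => ?_⟩
  simp [e, Cfsg.quadFormMinus, Cfsg.quadFormPlus, Fin.sum_univ_castSucc]
  ring

/-- Two anisotropic planes make a hyperbolic four-space. -/
theorem exists_two_planes {a b : F} (hab : Aniso a b) [Finite F] :
    ∃ e : (((Fin 0 ⊕ Fin 0) ⊕ Fin 2 → F) × ((Fin 0 ⊕ Fin 0) ⊕ Fin 2 → F)) ≃ₗ[F]
        (Fin 2 ⊕ Fin 2 → F),
      ∀ x, qPlus 2 F (e x) = QuadraticMap.prod (qMinus 0 F a b) (qMinus 0 F a b) x := by
  set Q₀ := qMinus 0 F a b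
  have hQ₀ := qMinus_nondegenerate (m := 0) a b (disc_ne_zero hab)
  have hnd : (QuadraticMap.polarBilin (QuadraticMap.prod Q₀ Q₀)).Nondegenerate := by
    have h : ∀ p, (∀ p', QuadraticMap.polar (QuadraticMap.prod Q₀ Q₀) p p' = 0) → p = 0 := by
      intro p hp
      refine Prod.ext (hQ₀.1 _ fun v => ?_) (hQ₀.1 _ fun v => ?_)
      · simpa [QuadraticMap.polar, Q₀,
          show Cfsg.quadFormMinus 0 F a b 0 = 0 by simp [Cfsg.quadFormMinus]] using hp (v, 0)
      · simpa [QuadraticMap.polar, Q₀,
          show Cfsg.quadFormMinus 0 F a b 0 = 0 by simp [Cfsg.quadFormMinus]] using hp (0, v)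
    exact ⟨h, fun v hv => h v fun u => by rw [QuadraticMap.polar_comm]; exact hv u⟩
  obtain ⟨f, hf⟩ := isPlus_of_singular hnd (w := 2) (by simp [Module.finrank_prod])
    (W := LinearMap.range (LinearMap.prod LinearMap.id LinearMap.id))
    (by
      rw [LinearMap.finrank_range_of_inj (fun x y h => congrArg Prod.fst h), Module.finrank_pi]
      simp)
    (by rintro _ ⟨x, rfl⟩; simp [CharTwo.add_self_eq_zero])
  exact ⟨f.symm, fun x => by rw [← hf, f.apply_symm_apply]⟩

variable [Fintype F]

/-- The translated elements for the even numbers of the list. -/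
theorem rt_list {a b : F} (hab : Aniso a b) {n : ℕ} (h : InList (Fintype.card F) n)
    (h1 : ¬ n ∣ Fintype.card F ^ 4 + 1) (h2 : ¬ n ∣ Fintype.card F ^ 4 - 1)
    (h3 : ¬ n ∣ (Fintype.card F ^ 3 - 1) * (Fintype.card F + 1))
    (h4 : ¬ n ∣ (Fintype.card F ^ 3 + 1) * (Fintype.card F - 1)) :
    RT (qMinus 3 F a b) n := by
  set q := Fintype.card F with hq
  have ha : a ≠ 0 := by
    intro h0
    obtain ⟨s, hs⟩ := FiniteField.isSquare_of_char_two (ringChar.eq F 2) b
    have := hab s 1 (by rw [h0, hs]; ring_nf; simp [CharTwo.two_eq_zero])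
    exact one_ne_zero this.2
  have hev : Even q := even_card_two
  have hq2 : 2 ≤ q := Fintype.one_lt_card
  have hevp : ∀ k, k ≠ 0 → Even (q ^ k) := fun k hk => (Nat.even_pow' hk).2 hev
  have hodd1 : ∀ k, k ≠ 0 → Odd (q ^ k - 1) := fun k hk => by
    obtain ⟨c, hc⟩ := hevp k hk
    have := Nat.one_le_pow k q (by omega)
    exact ⟨c - 1, by omega⟩
  have hodd2 : ∀ k, k ≠ 0 → Odd (q ^ k + 1) := fun k hk => (hevp k hk).add_one
  have ho1 : Odd (q - 1) := by simpa using hodd1 1 one_ne_zero
  have ho1' : Odd (q + 1) := by simpa using hodd2 1 one_ne_zero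
  have t1 : Real (qMinus 0 F a b) (q + 1) := by simpa using real_minus_torus 0 hab
  have t2 : Real (qMinus 1 F a b) (q ^ 2 + 1) := by simpa using real_minus_torus 1 hab
  have t3 : Real (qMinus 2 F a b) (q ^ 3 + 1) := by simpa using real_minus_torus 2 hab
  have g1 : Real (qPlus 1 F) (q - 1) := by simpa using real_plus_torus (F := F) 1 one_pos
  have g2 : Real (qPlus 2 F) (q ^ 2 - 1) := real_plus_torus (F := F) 2 two_pos
  have g3 : Real (qPlus 3 F) (q ^ 3 - 1) := real_plus_torus (F := F) 3 three_pos
  have ne1 : (fun _ => (1 : F) : Fin 1 ⊕ Fin 1 → F) ≠ 0 := fun h =>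
    one_ne_zero (congrFun h (Sum.inl 0))
  have ne0 : (fun _ => (1 : F) : (Fin 0 ⊕ Fin 0) ⊕ Fin 2 → F) ≠ 0 := fun h =>
    one_ne_zero (congrFun h (Sum.inr 0))
  have s1 : UP (qPlus 1 F) (2 ^ 1) 1 := by
    obtain ⟨e, he⟩ := exists_plus_iso (F := F) 0
    exact (up_minus_zero one_ne_zero).congr e he
  have u4 : UP (qPlus 2 F) (2 ^ 2) 3 := by
    obtain ⟨e, he⟩ := exists_plus_iso (F := F) 1
    exact (up_minus_one one_ne_zero).congr e he
  obtain ⟨e30, he30⟩ := exists_minus_split (F := F) 3 0 a b
  obtain ⟨e12, he12⟩ := exists_minus_split (F := F) 1 2 a b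
  obtain ⟨e21, he21⟩ := exists_minus_split (F := F) 2 1 a b
  rcases h with h | h | h | h | h | h | h | h | h | h | h | h
  · exact absurd h h1
  · exact absurd h h2
  · exact absurd h h3
  · exact absurd h h4
  · exact (RT.prod_left g3 (hodd1 3 three_ne_zero) (up_one _ ne0) Even.zero
      (by simpa using h)).congr e30 he30
  · exact (RT.prod_right (up_one _ ne1) t3 (hodd2 3 three_ne_zero) Even.zero
      (by simpa using h)).congr e12 he12
  · have hr : Real (qMinus 2 F a b) ((q ^ 2 + 1) * (q - 1)) := by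
      have := real_minus_add 1 1 g1 t2
      rw [lcm_eq_mul ((coprime_sub_add (hevp 2 two_ne_zero) (by positivity)).of_dvd_left
        (by simpa using Nat.sub_dvd_pow_sub_pow q 1 2)), mul_comm] at this
      exact this
    exact (RT.prod_right (up_one _ ne1) hr ((hodd2 2 two_ne_zero).mul ho1) Even.zero
      (by simpa using h)).congr e12 he12
  · obtain ⟨e2, he2⟩ := exists_two_planes hab
    have hr : Real (QuadraticMap.prod (qMinus 0 F a b) (qMinus 1 F a b)) ((q ^ 2 + 1) * (q + 1)) := by
      have := t1.prod t2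
      rw [lcm_eq_mul ((coprime_sub_add (hevp 2 two_ne_zero) (by positivity)).of_dvd_left
        ⟨q - 1, by simpa using Nat.sq_sub_sq q 1⟩), mul_comm] at this
      exact this
    have hrt := RT.prod_right (up_one (qMinus 0 F a b) ne0) hr
      ((hodd2 2 two_ne_zero).mul ho1') Even.zero (n := n) (by simpa using h)
    exact hrt.congr (((LinearEquiv.prodAssoc F _ _ _).symm.trans
      (LinearEquiv.prodCongr e2 (LinearEquiv.refl F _))).trans e21) fun x => by
        simp only [LinearEquiv.trans_apply, he21]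
        simp [he2, add_assoc]
        rfl
  · obtain ⟨e, he⟩ := exists_minus_split (F := F) 1 0 a b
    have hu : UP (qMinus 1 F a b) (2 ^ 1) (1 + 1) := (s1.prod (up_minus_zero ha) (by norm_num)).congr e he
    exact (RT.prod_left g2 (hodd1 2 two_ne_zero) hu ⟨1, rfl⟩
      (h.trans (dvd_of_eq (by ring)))).congr e21 he21
  · obtain ⟨e, he⟩ := exists_plus_split (F := F) 1 1
    have hu : UP (qPlus 2 F) (2 ^ 1) (1 + 1) := (s1.prod s1 dvd_rfl).congr e he
    exact (RT.prod_right hu t2 (hodd2 2 two_ne_zero) ⟨1, rfl⟩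
      (h.trans (dvd_of_eq (by ring)))).congr e21 he21
  · obtain ⟨e, he⟩ := exists_minus_split (F := F) 1 1 a b
    have hu : UP (qMinus 2 F a b) (2 ^ 2) (3 + 1) :=
      ((up_minus_one (b := b) ha).prod s1 (by norm_num)).congr ((LinearEquiv.prodComm F _ _).trans e)
        fun x => by simp only [LinearEquiv.trans_apply, he]; simp [add_comm]
    exact (RT.prod_left g1 ho1 hu ⟨2, rfl⟩ (h.trans (dvd_of_eq (by ring)))).congr e12 he12
  · obtain ⟨e, he⟩ := exists_plus_split (F := F) 2 1
    have hu : UP (qPlus 3 F) (2 ^ 2) (3 + 1) := (u4.prod s1 (by norm_num)).congr e he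
    exact (RT.prod_right hu t1 ho1' ⟨2, rfl⟩ (h.trans (dvd_of_eq (by ring)))).congr e30 he30

end Cfsg.Agent.SpecEight
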