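import Cfsg.Agent.SpecEight.Shift
import Cfsg.Agent.SpecEight.Transl
import Cfsg.Agent.Forms.InvolTwoOrth

/-!
Unboundedly many groups with the spectrum of the eight dimensional symplectic group in
characteristic two: vectors translated by the index two subgroup of the minus type group.
-/

set_option autoImplicit false

namespace Cfsg.Agent.SpecEight

open Module Cfsg.Agent.Forms Cfsg.Agent.KnownB.Proj.Orth

variable {F V : Type*} [Field F] [AddCommGroup V] [Module F V]

theorem InList.mono {q n m : ℕ} (h : InList q n) (hm : m ∣ n) : InList q m := by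
  rcases h with h | h | h | h | h | h | h | h | h | h | h | h
  all_goals first
    | exact Or.inl (hm.trans h)
    | exact Or.inr (Or.inl (hm.trans h))
    | exact Or.inr (Or.inr (Or.inl (hm.trans h)))
    | exact Or.inr (Or.inr (Or.inr (Or.inl (hm.trans h))))
    | exact Or.inr (Or.inr (Or.inr (Or.inr (Or.inl (hm.trans h)))))
    | exact Or.inr (Or.inr (Or.inr (Or.inr (Or.inr (Or.inl (hm.trans h))))))
    | exact Or.inr (Or.inr (Or.inr (Or.inr (Or.inr (Or.inr (Or.inl (hm.trans h)))))))
    | exact Or.inr (Or.inr (Or.inr (Or.inr (Or.inr (Or.inr (Or.inr (Or.inl (hm.trans h))))))))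
    | exact Or.inr (Or.inr (Or.inr (Or.inr (Or.inr (Or.inr (Or.inr (Or.inr (Or.inl (hm.trans h)))))))))
    | exact Or.inr (Or.inr (Or.inr (Or.inr (Or.inr (Or.inr (Or.inr (Or.inr (Or.inr (Or.inl (hm.trans h))))))))))
    | exact Or.inr (Or.inr (Or.inr (Or.inr (Or.inr (Or.inr (Or.inr (Or.inr (Or.inr (Or.inr (Or.inl (hm.trans h)))))))))))
    | exact Or.inr (Or.inr (Or.inr (Or.inr (Or.inr (Or.inr (Or.inr (Or.inr (Or.inr (Or.inr (Or.inr (hm.trans h)))))))))))

/-- A subgroup of automorphisms acting on tuples of vectors. -/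
def tupleHom (k : ℕ) {Q : QuadraticForm F V} (K : Subgroup (orthGroup Q)) :
    K →* MulAut (Multiplicative (Fin k → V)) where
  toFun g := AddEquiv.toMultiplicative
    (LinearEquiv.piCongrRight (R := F) fun _ : Fin k => (g.1 : V ≃ₗ[F] V)).toAddEquiv
  map_one' := MulEquiv.ext fun _ => rfl
  map_mul' _ _ := MulEquiv.ext fun _ => rfl

theorem tupleHom_apply {k : ℕ} {Q : QuadraticForm F V} (K : Subgroup (orthGroup Q)) (g : K)
    (w : Multiplicative (Fin k → V)) (i : Fin k) :
    Multiplicative.toAdd (tupleHom k K g w) i = (g.1 : V ≃ₗ[F] V) (Multiplicative.toAdd w i) := rfl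

theorem tuple_pow {k : ℕ} {Q : QuadraticForm F V} (K : Subgroup (orthGroup Q))
    (x : Multiplicative (Fin k → V) ⋊[tupleHom k K] K) (n : ℕ) :
    (x ^ n).right = x.right ^ n ∧
      ∀ i, Multiplicative.toAdd (x ^ n).left i =
        orbSum (x.right.1 : V ≃ₗ[F] V) n (Multiplicative.toAdd x.left i) := by
  induction n with
  | zero =>
    refine ⟨by simp, fun i => ?_⟩
    simp [orbSum]
  | succ n ih =>
    refine ⟨by rw [pow_succ, SemidirectProduct.mul_right, ih.1, ← pow_succ], fun i => ?_⟩
    rw [pow_succ, SemidirectProduct.mul_left, toAdd_mul, Pi.add_apply, ih.2, tupleHom_apply,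
      ih.1, orbSum, orbSum, Finset.sum_range_succ]
    simp

/-- A sum over a multiple of the period. -/
theorem orbSum_mul (u : V ≃ₗ[F] V) (w : V) (o : ℕ) :
    orbSum u (orderOf u * o) w = o • orbSum u (orderOf u) w := by
  induction o with
  | zero => simp [orbSum]
  | succ o ih =>
    rw [Nat.mul_succ, orbSum, Finset.sum_range_add, ← orbSum, ih, succ_nsmul]
    congr 1
    refine Finset.sum_congr rfl fun i _ => ?_
    rw [pow_add, pow_mul, pow_orderOf_eq_one, one_pow, one_mul]

variable [Fintype F] [CharP F 2]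

theorem orbSum_shift {h u : V ≃ₗ[F] V} {w : V} (hc : Commute h u) (ho : Odd (orderOf h))
    (hfix : h w = w) :
    orbSum (h * u) (orderOf h * orderOf u) w = orbSum u (orderOf u) w := by
  have hf : ∀ i : ℕ, (h ^ i) w = w := by
    intro i
    induction i with
    | zero => rfl
    | succ i ih => rw [pow_succ', LinearEquiv.mul_apply, ih, hfix]
  have h1 : orbSum (h * u) (orderOf h * orderOf u) w = orbSum u (orderOf h * orderOf u) w := by
    refine Finset.sum_congr rfl fun i _ => ?_
    rw [hc.mul_pow, (hc.pow_pow i i).eq, LinearEquiv.mul_apply, hf]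
  obtain ⟨c, hc'⟩ := ho
  rw [h1, mul_comm, orbSum_mul, hc', succ_nsmul, ← Nat.cast_smul_eq_nsmul F, Nat.cast_mul,
    show ((2 : ℕ) : F) = 0 from CharP.cast_eq_zero F 2, zero_mul, zero_smul, zero_add]

/-- An anisotropic plane exists. -/
theorem exists_aniso_one : ∃ ζ : F, Aniso (1 : F) ζ := by
  obtain ⟨ζ, hζ⟩ : ∃ ζ : F, ∀ x, x ^ 2 + x ≠ ζ := by
    by_contra hcon
    push Not at hcon
    have hinj := (Finite.injective_iff_surjective (f := fun x : F => x ^ 2 + x)).2 hcon
    refine zero_ne_one (hinj (show (0 : F) ^ 2 + 0 = 1 ^ 2 + 1 by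
      simp [CharTwo.add_self_eq_zero]))
  refine ⟨ζ, fun z₁ z₂ h => ?_⟩
  by_cases hz : z₂ = 0
  · subst hz
    exact ⟨eq_zero_of_pow_eq_zero (n := 2) (by linear_combination h), rfl⟩
  · refine absurd ?_ (hζ (z₁ / z₂))
    field_simp
    linear_combination h + CharTwo.two_eq_zero (R := F) * (-(ζ * z₂ ^ 2))

/-- In the translated groups every element is killed by a number of the list. -/
theorem tuple_exponent [FiniteDimensional F V] {Q : QuadraticForm F V} (hd : finrank F V = 8)
    (hQ : (QuadraticMap.polarBilin Q).Nondegenerate) {k : ℕ} (K : Subgroup (orthGroup Q))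
    (hK : ∀ g ∈ K, Even (finrank F (LinearMap.range
      (((g : V ≃ₗ[F] V) : Module.End F V) - 1))))
    (x : Multiplicative (Fin k → V) ⋊[tupleHom k K] K) :
    ∃ m, InList (Fintype.card F) m ∧ x ^ m = 1 := by
  set g : V ≃ₗ[F] V := x.right.1.1 with hg
  have hgQ : ∀ v, Q (g v) = Q v := (mem_isomGroup_quad_iff _ g).1 x.right.1.2
  have hB : ∀ u v, QuadraticMap.polarBilin Q (g u) (g v) = QuadraticMap.polarBilin Q u v := by
    intro u v
    simp [QuadraticMap.polar, ← map_add, hgQ]
  have hA : orderOf x.right = orderOf g := by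
    rw [← Subgroup.orderOf_coe, ← Subgroup.orderOf_coe]
  have hr : (x ^ orderOf g).right = 1 := by
    rw [(tuple_pow K x _).1, ← hA, pow_orderOf_eq_one]
  rcases shift_order hd hQ hB (hK _ x.right.2) with h0 | h2
  · refine ⟨orderOf g, ?_, SemidirectProduct.ext ?_ hr⟩
    · have := symp_eight_order hd hQ hB
      rwa [Nat.card_eq_fintype_card, orderOf_end] at this
    · refine Multiplicative.toAdd.injective (funext fun i => ?_)
      rw [(tuple_pow K x _).2]
      have := LinearMap.congr_fun h0 (Multiplicative.toAdd x.left i)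
      rw [orderOf_end, LinearMap.sum_apply, LinearMap.zero_apply] at this
      simp only [← coe_pow] at this
      exact this
  · rw [Nat.card_eq_fintype_card, orderOf_end] at h2
    refine ⟨2 * orderOf g, h2, ?_⟩
    rw [mul_comm, pow_mul, sq]
    refine SemidirectProduct.ext ?_ (by rw [SemidirectProduct.mul_right, hr, mul_one]; rfl)
    rw [SemidirectProduct.mul_left, hr, map_one, MulAut.one_apply]
    refine Multiplicative.toAdd.injective (funext fun i => ?_)
    rw [toAdd_mul, Pi.add_apply, SemidirectProduct.one_left, toAdd_one, Pi.zero_apply,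
      ← two_smul F, CharTwo.two_eq_zero, zero_smul]

/-- Twice the order of an isometry with translation. -/
theorem tuple_realise [FiniteDimensional F V] [Finite V] {Q : QuadraticForm F V} {k : ℕ}
    (K : Subgroup (orthGroup Q)) (hodd : ∀ g : orthGroup Q, Odd (orderOf g) → g ∈ K)
    (hK : ∀ g : orthGroup Q, Even (finrank F (LinearMap.range
      (((g : V ≃ₗ[F] V) : Module.End F V) - 1))) → g ∈ K)
    {n : ℕ} (hrt : RT Q n) (hk : 0 < k) :
    ∃ x : Multiplicative (Fin k → V) ⋊[tupleHom k K] K, orderOf x = n := by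
  obtain ⟨h, u, w, hh, hu, hc, ho, hco, hev, hfix, hw, hdvd⟩ := hrt
  haveI : Finite (V ≃ₗ[F] V) := Finite.of_injective _ DFunLike.coe_injective
  haveI : Finite (Multiplicative (Fin k → V) ⋊[tupleHom k K] K) :=
    Finite.of_injective (fun x => (x.left, x.right)) fun x y e =>
      SemidirectProduct.ext (congrArg Prod.fst e) (congrArg Prod.snd e)
  let g : orthGroup Q :=
    ⟨h, (mem_isomGroup_quad_iff _ h).2 hh⟩ * ⟨u, (mem_isomGroup_quad_iff _ u).2 hu⟩
  have hgK : g ∈ K := K.mul_mem (hodd _ (by rw [← Subgroup.orderOf_coe]; exact ho)) (hK _ hev)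
  let x : Multiplicative (Fin k → V) ⋊[tupleHom k K] K :=
    ⟨Multiplicative.ofAdd (fun _ => w), ⟨g, hgK⟩⟩
  have hA : orderOf x.right = orderOf h * orderOf u := by
    rw [← Subgroup.orderOf_coe, ← Subgroup.orderOf_coe]
    exact hc.orderOf_mul_eq_mul_orderOf_of_coprime hco
  set A := orderOf h * orderOf u with hAdef
  have h1 : A ∣ orderOf x := by
    rw [← hA]; exact orderOf_map_dvd SemidirectProduct.rightHom x
  have hr : (x ^ A).right = 1 := by rw [(tuple_pow K x _).1, ← hA, pow_orderOf_eq_one]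
  have hne : x ^ A ≠ 1 := by
    intro e
    have h2 := (tuple_pow K x A).2 ⟨0, hk⟩
    rw [e] at h2
    refine hw ?_
    rw [← orbSum_shift hc ho hfix]
    exact h2.symm
  have h2 : orderOf x ∣ A * 2 := by
    refine orderOf_dvd_of_pow_eq_one ?_
    rw [pow_mul, sq]
    refine SemidirectProduct.ext ?_ (by rw [SemidirectProduct.mul_right, hr, mul_one]; rfl)
    rw [SemidirectProduct.mul_left, hr, map_one, MulAut.one_apply]
    refine Multiplicative.toAdd.injective (funext fun i => ?_)
    rw [toAdd_mul, Pi.add_apply, SemidirectProduct.one_left, toAdd_one, Pi.zero_apply,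
      ← two_smul F, CharTwo.two_eq_zero, zero_smul]
  have hx : orderOf x = 2 * A := by
    obtain ⟨d, hd'⟩ := h1
    have hA0 : 0 < A := by
      have := orderOf_pos x
      rw [hd'] at this
      exact Nat.pos_of_mul_pos_right this
    rw [hd'] at h2
    rcases (Nat.dvd_prime Nat.prime_two).1 (Nat.dvd_of_mul_dvd_mul_left hA0 h2) with rfl | rfl
    · exact absurd (orderOf_dvd_iff_pow_eq_one.1 (dvd_of_eq (by rw [hd', mul_one]))) hne
    · rw [hd', mul_comm]
  exact ⟨x ^ (orderOf x / n), orderOf_pow_orderOf_div (orderOf_pos x).ne' (hx ▸ hdvd)⟩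

/-- Every finite group has a copy in the bottom universe. -/
theorem exists_small (G : Type*) [Group G] [Fintype G] :
    ∃ (H : Type) (_ : Group H) (_ : Fintype H), Fintype.card H = Fintype.card G ∧
      Set.range (orderOf : H → ℕ) = Set.range (orderOf : G → ℕ) := by
  let e : {i : Fin (Fintype.card G) // True} ≃ G :=
    (Equiv.subtypeUnivEquiv fun _ => trivial).trans (Fintype.equivFin G).symm
  let inst : Group {i : Fin (Fintype.card G) // True} := e.group
  letI := inst
  refine ⟨_, inst, inferInstance, Fintype.card_congr e, ?_⟩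
  have f : {i : Fin (Fintype.card G) // True} ≃* G := Equiv.mulEquiv e
  ext n
  constructor
  · rintro ⟨y, rfl⟩
    exact ⟨f y, MulEquiv.orderOf_eq f y⟩
  · rintro ⟨y, rfl⟩
    exact ⟨f.symm y, MulEquiv.orderOf_eq f.symm y⟩

/-- The statement. -/
theorem unbounded (M : ℕ) :
    ∃ (H : Type) (_ : Group H) (_ : Fintype H), M < Fintype.card H ∧
      Set.range (orderOf : H → ℕ) = Set.range (orderOf : Cfsg.PSp 4 F → ℕ) := by
  classical
  obtain ⟨ζ, hζ⟩ := exists_aniso_one (F := F)
  set Q := qMinus 3 F (1 : F) ζ with hQdef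
  have hQ := qMinus_nondegenerate (m := 3) (1 : F) ζ (disc_ne_zero hζ)
  have hd : finrank F ((Fin 3 ⊕ Fin 3) ⊕ Fin 2 → F) = 8 := by simp
  have hgen := closure_reflectionSet_char_two hQ (Or.inr (Or.inl (by rw [hd]; norm_num)))
  have hn : 1 ≤ finrank F ((Fin 3 ⊕ Fin 3) ⊕ Fin 2 → F) := by omega
  set K := commutator (orthGroup Q) with hK
  have hidx : K.index = 2 :=
    (commutator_index_two_of_gen two_eq_zero_of_charTwo hQ hgen hn).1
  have hodd : ∀ g : orthGroup Q, Odd (orderOf g) → g ∈ K := by
    intro g hg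
    obtain ⟨c, hc⟩ := hg
    have h : (g ^ (c + 1)) ^ 2 = g := by
      rw [← pow_mul, show (c + 1) * 2 = orderOf g + 1 by omega, pow_succ, pow_orderOf_eq_one, one_mul]
    rw [← h]
    exact Subgroup.sq_mem_of_index_two hidx _
  let H₀ := Multiplicative (Fin (M + 1) → ((Fin 3 ⊕ Fin 3) ⊕ Fin 2 → F)) ⋊[tupleHom (M + 1) K] K
  haveI : Finite H₀ := Finite.of_injective (fun x : H₀ => (x.left, x.right)) fun x y e =>
    SemidirectProduct.ext (congrArg Prod.fst e) (congrArg Prod.snd e)
  haveI : Fintype H₀ := Fintype.ofFinite _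
  have hcard : M < Fintype.card H₀ := by
    have h2 : Fintype.card (Fin (M + 1) → ((Fin 3 ⊕ Fin 3) ⊕ Fin 2 → F)) ≤ Fintype.card H₀ :=
      Fintype.card_le_of_injective (fun v => (SemidirectProduct.inl (Multiplicative.ofAdd v) : H₀))
        fun v v' e => Multiplicative.ofAdd.injective (SemidirectProduct.inl_injective e)
    rw [Fintype.card_fun, Fintype.card_fin] at h2
    refine lt_of_lt_of_le ?_ h2
    exact lt_trans (Nat.lt_succ_self M) (Nat.lt_pow_self Fintype.one_lt_card)
  have hspec : Set.range (orderOf : H₀ → ℕ) = Set.range (orderOf : Cfsg.PSp 4 F → ℕ) := by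
    ext n
    constructor
    · rintro ⟨x, rfl⟩
      obtain ⟨m, hm, hxm⟩ := tuple_exponent hd hQ K
        (fun g hg => (mem_commutator_iff_even hQ hgen hn g).1 hg) x
      obtain ⟨g', hg', ho⟩ := exists_orderOf_eq
        (real_list hζ (hm.mono (orderOf_dvd_of_pow_eq_one hxm)))
      have := real_psp (by simp) hQ hg'
      rwa [ho] at this
    · intro hn'
      have hin := psp_inList hn'
      by_cases hT : n ∣ Fintype.card F ^ 4 + 1 ∨ n ∣ Fintype.card F ^ 4 - 1 ∨
          n ∣ (Fintype.card F ^ 3 - 1) * (Fintype.card F + 1) ∨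
          n ∣ (Fintype.card F ^ 3 + 1) * (Fintype.card F - 1)
      · have hno : Odd n := by
          have he : Even (Fintype.card F) := even_card_two
          have hp : ∀ k, k ≠ 0 → Odd (Fintype.card F ^ k - 1) := fun k hk =>
            Nat.Even.sub_odd (Nat.one_le_pow _ _ Fintype.card_pos) ((Nat.even_pow' hk).2 he) odd_one
          have hp' : ∀ k, k ≠ 0 → Odd (Fintype.card F ^ k + 1) := fun k hk =>
            ((Nat.even_pow' hk).2 he).add_one
          rcases hT with h | h | h | h
          · exact (hp' 4 four_ne_zero).of_dvd_nat h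
          · exact (hp 4 four_ne_zero).of_dvd_nat h
          · exact ((hp 3 three_ne_zero).mul (by simpa using hp' 1 one_ne_zero)).of_dvd_nat h
          · exact ((hp' 3 three_ne_zero).mul (by simpa using hp 1 one_ne_zero)).of_dvd_nat h
        obtain ⟨g, hg, ho⟩ := exists_orderOf_eq (real_list hζ hin)
        have hgK : (⟨g, (mem_isomGroup_quad_iff _ g).2 hg⟩ : orthGroup Q) ∈ K :=
          hodd _ (by rw [← Subgroup.orderOf_coe, ho]; exact hno)
        refine ⟨SemidirectProduct.inr ⟨_, hgK⟩, ?_⟩
        rw [orderOf_injective _ SemidirectProduct.inr_injective, ← Subgroup.orderOf_coe,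
          ← Subgroup.orderOf_coe]
        exact ho
      · simp only [not_or] at hT
        exact tuple_realise K hodd (fun g h => (mem_commutator_iff_even hQ hgen hn g).2 h)
          (rt_list hζ hin hT.1 hT.2.1 hT.2.2.1 hT.2.2.2) M.succ_pos
  obtain ⟨H, i₁, i₂, hc, hs⟩ := exists_small H₀
  exact ⟨H, i₁, i₂, hc ▸ hcard, hs.trans hspec⟩

end Cfsg.Agent.SpecEight
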