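import Cfsg.Agent.SpecEight.Orders

/-!
When an orbit sum of an isometry with even Dickson parity does not vanish, twice its order is in
the list.
-/

set_option autoImplicit false

namespace Cfsg.Agent.SpecEight

open Module Polynomial

variable {F V : Type*} [Field F] [AddCommGroup V] [Module F V]

/-- Sums of powers over a product range. -/
theorem sum_range_mul {R : Type*} [Ring R] (g : R) (P E : ℕ) :
    ∑ i ∈ Finset.range (P * E), g ^ i =
      (∑ i ∈ Finset.range P, g ^ i) * ∑ j ∈ Finset.range E, (g ^ P) ^ j := by
  induction E with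
  | zero => simp
  | succ E ih =>
    rw [Nat.mul_succ, Finset.sum_range_add, ih, Finset.sum_range_succ, mul_add, Finset.sum_mul,
      Finset.sum_mul]
    congr 1
    refine Finset.sum_congr rfl fun i _ => ?_
    rw [← pow_mul, ← pow_add, add_comm]

/-- In characteristic two a geometric sum of two-power length is a power of `g - 1`. -/
theorem geom_two [CharP F 2] (g : Module.End F V) (v : ℕ) :
    ∑ i ∈ Finset.range (2 ^ v), g ^ i = (g - 1) ^ (2 ^ v - 1) := by
  have h : (∑ i ∈ Finset.range (2 ^ v), (X : F[X]) ^ i) = (X - 1) ^ (2 ^ v - 1) := by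
    have hne : (X - 1 : F[X]) ≠ 0 := by rw [← map_one C]; exact X_sub_C_ne_zero 1
    refine mul_right_cancel₀ hne ?_
    rw [geom_sum_mul, ← pow_succ, Nat.sub_add_cancel Nat.one_le_two_pow, sub_pow_char_pow, one_pow]
  simpa using congrArg (aeval g) h

/-- The ranks of powers of a nilpotent endomorphism with a large non-zero power. -/
theorem finrank_ker_le_one [FiniteDimensional F V] (N : Module.End F V) (hN : IsNilpotent N)
    (W : Submodule F V) (hW : ∀ x ∈ W, N x ∈ W) {d : ℕ} (hd : finrank F W = d)
    {x : V} (hx : x ∈ W) (hne : (N ^ (d - 1)) x ≠ 0) :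
    finrank F ↥(W ⊓ LinearMap.ker N) ≤ 1 := by
  let R : ℕ → Submodule F V := fun i => W.map (N ^ i)
  have hRd : ∀ i, i ≤ d - 1 → R i ≠ ⊥ := by
    intro i hi h
    have hxi : (N ^ i) x = 0 := (Submodule.eq_bot_iff _).1 h _ ⟨x, hx, rfl⟩
    obtain ⟨j, hj⟩ := Nat.exists_eq_add_of_le hi
    rw [hj, add_comm, pow_add, Module.End.mul_apply, hxi, map_zero] at hne
    exact hne rfl
  have hle : ∀ i, R (i + 1) ≤ R i := by
    rintro i _ ⟨y, hy, rfl⟩
    exact ⟨N y, hW y hy, by rw [pow_succ]; rfl⟩
  have hlt : ∀ i, R i ≠ ⊥ → R (i + 1) < R i := by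
    intro i hi
    refine lt_of_le_of_ne (hle i) fun he => ?_
    obtain ⟨k, hk⟩ := hN
    have hstab : ∀ j, R (i + j) = R i := by
      intro j
      induction j with
      | zero => rfl
      | succ j ih =>
        calc R (i + (j + 1)) = (R (i + j)).map N := by
              simp only [R, ← Submodule.map_comp]; rw [← add_assoc, pow_succ']; rfl
          _ = (R i).map N := by rw [ih]
          _ = R (i + 1) := by simp only [R, ← Submodule.map_comp]; rw [pow_succ']; rfl
          _ = R i := he
    refine hi ?_
    rw [← hstab k]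
    simp [R, pow_add, hk]
  have hdim : ∀ j, j + 1 ≤ d - 1 → j + 1 ≤ finrank F (R (d - 1 - j)) := by
    intro j
    induction j with
    | zero =>
      intro _
      rw [Nat.sub_zero]
      exact Submodule.one_le_finrank_iff.2 (hRd _ le_rfl)
    | succ j ih =>
      intro hj
      have h1 := ih (by omega)
      have h2 := Submodule.finrank_lt_finrank_of_lt (hlt (d - 1 - (j + 1)) (hRd _ (by omega)))
      rw [show d - 1 - (j + 1) + 1 = d - 1 - j by omega] at h2
      omega
  have hrn := LinearMap.finrank_range_add_finrank_ker (N.domRestrict W)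
  rw [LinearMap.range_domRestrict, hd] at hrn
  have hk : finrank F (LinearMap.ker (N.domRestrict W)) = finrank F ↥(W ⊓ LinearMap.ker N) := by
    have h : (LinearMap.ker (N.domRestrict W)).map W.subtype = W ⊓ LinearMap.ker N := by
      ext y; simp [and_comm]
    rw [← Submodule.finrank_map_subtype_eq W, h]
  have hR1 : R 1 = W.map N := by simp [R]
  rcases Nat.lt_or_ge d 2 with hd2 | hd2
  · rw [← hk]; omega
  · have h1 := hdim (d - 2) (by omega)
    rw [show d - 1 - (d - 2) = 1 by omega, hR1] at h1
    rw [← hk]
    omega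

/-- Twice the order is in the list when the orbit sum does not vanish. -/
theorem shift_order [Finite F] [CharP F 2] [FiniteDimensional F V] (hn8 : finrank F V = 8)
    {B : LinearMap.BilinForm F V} (hB : B.Nondegenerate) {a : V ≃ₗ[F] V}
    (ha : ∀ x y, B (a x) (a y) = B x y)
    (heven : Even (finrank F (LinearMap.range ((a : Module.End F V) - 1)))) :
    ((∑ i ∈ Finset.range (orderOf (a : Module.End F V)), (a : Module.End F V) ^ i) = 0) ∨
      InList (Nat.card F) (2 * orderOf (a : Module.End F V)) := by
  classical
  haveI : Finite V := Module.finite_of_finite F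
  haveI : Finite (V ≃ₗ[F] V) := Finite.of_injective _ DFunLike.coe_injective
  haveI : Nontrivial V := Module.nontrivial_of_finrank_pos (R := F) (by omega)
  haveI : CharP (Module.End F V) 2 :=
    charP_of_injective_algebraMap (algebraMap F (Module.End F V)).injective 2
  set g : Module.End F V := (a : Module.End F V) with hg
  set A := orderOf g with hA
  have hA0 : 0 < A := by rw [hA, orderOf_end]; exact orderOf_pos a
  set v := A.factorization 2 with hv
  set P := 2 ^ v with hP
  set E := A / P with hE
  have hPE : P * E = A := Nat.ordProj_mul_ordCompl_eq_self A 2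
  set W := LinearMap.ker (g ^ P - 1) with hW
  set d := finrank F W with hd
  by_cases hkill : ∀ x ∈ W, ((g - 1) ^ (P - 1)) x = 0
  · refine Or.inl (LinearMap.ext fun y => ?_)
    rw [← hPE, sum_range_mul, geom_two, Module.End.mul_apply, LinearMap.zero_apply]
    refine hkill _ ?_
    rw [hW, LinearMap.mem_ker, ← Module.End.mul_apply, mul_geom_sum, ← pow_mul, hPE, hA,
      pow_orderOf_eq_one, sub_self, LinearMap.zero_apply]
  push Not at hkill
  obtain ⟨x, hx, hxne⟩ := hkill
  set N : Module.End F V := g - 1 with hN
  have hWN : ∀ y ∈ W, N y ∈ W := by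
    intro y hy
    rw [hW, LinearMap.mem_ker] at hy ⊢
    rw [← Module.End.mul_apply, show (g ^ P - 1) * N = N * (g ^ P - 1) from
      (((Commute.pow_self g P).sub_right (Commute.one_right _)).sub_left (Commute.one_left _)).eq,
      Module.End.mul_apply, hy, map_zero]
  have hNP : ∀ y ∈ W, (N ^ P) y = 0 := by
    intro y hy
    rw [hN, hP, sub_pow_char_pow_of_commute 2 v (Commute.one_right g), one_pow, ← hP]
    exact LinearMap.mem_ker.1 hy
  -- the restriction is nilpotent
  set M : Module.End F W := N.restrict hWN with hM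
  have hMpow : ∀ (i : ℕ) (y : W), ((M ^ i) y : V) = (N ^ i) (y : V) := by
    intro i
    induction i with
    | zero => intro y; rfl
    | succ i ih => intro y; rw [pow_succ', pow_succ', Module.End.mul_apply, Module.End.mul_apply, ← ih]; rfl
  have hMnil : IsNilpotent M := ⟨P, LinearMap.ext fun y => Subtype.ext (by
    rw [hMpow, hNP _ y.2]; rfl)⟩
  have hMd : ∀ y : W, (M ^ d) y = 0 := by
    intro y
    have h := LinearMap.aeval_self_charpoly M
    rw [IsNilpotent.charpoly_eq_X_pow_finrank hMnil, map_pow, aeval_X, ← hd] at h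
    rw [h]; rfl
  have hP1 : 1 ≤ P := Nat.one_le_two_pow
  have hPd : P ≤ d := by
    by_contra hlt
    refine hxne ?_
    rw [show P - 1 = (P - 1 - d) + d by omega, pow_add, Module.End.mul_apply, ← hMpow d ⟨x, hx⟩,
      hMd, ZeroMemClass.coe_zero, map_zero]
  -- the two are not equal, by parity
  have hPne : P ≠ d := by
    intro he
    have hle := finrank_ker_le_one M hMnil ⊤ (fun _ _ => trivial) (d := d) (by rw [finrank_top])
      (x := ⟨x, hx⟩) trivial (fun h => hxne (by rw [he, ← hMpow _ ⟨x, hx⟩, h]; rfl))
    rw [top_inf_eq] at hle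
    have hker : finrank F (LinearMap.ker N) = 1 := by
      have hkW : LinearMap.ker N ≤ W := by
        intro y hy
        rw [hW, LinearMap.mem_ker]
        have h1 : g y = y := by
          rw [hN, LinearMap.mem_ker, LinearMap.sub_apply, Module.End.one_apply, sub_eq_zero] at hy
          exact hy
        have h2 : ∀ i : ℕ, (g ^ i) y = y := by
          intro i
          induction i with
          | zero => rfl
          | succ i ih => rw [pow_succ', Module.End.mul_apply, ih, h1]
        rw [LinearMap.sub_apply, h2, Module.End.one_apply, sub_self]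
      have hmap : (LinearMap.ker M).map W.subtype = LinearMap.ker N := by
        refine le_antisymm ?_ ?_
        · rintro _ ⟨y, hy, rfl⟩
          exact congrArg Subtype.val (LinearMap.mem_ker.1 hy)
        · intro y hy
          exact ⟨⟨y, hkW hy⟩, Subtype.ext (LinearMap.mem_ker.1 hy), rfl⟩
      have h1 : finrank F (LinearMap.ker N) ≤ 1 := by
        rw [← hmap, Submodule.finrank_map_subtype_eq]; exact hle
      have h2 : LinearMap.ker N ≠ ⊥ := by
        rw [← hmap]
        intro hb0
        have hb : LinearMap.ker M = ⊥ :=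
          Submodule.map_injective_of_injective W.injective_subtype (hb0.trans (Submodule.map_bot _).symm)
        have : Function.Injective ⇑(M ^ d) := by
          rw [Module.End.coe_pow]
          exact (LinearMap.ker_eq_bot.1 hb).iterate d
        have hx0 : (⟨x, hx⟩ : W) = 0 := this (by rw [hMd, map_zero])
        exact hxne (by rw [show x = 0 from congrArg Subtype.val hx0, map_zero])
      have h3 : 1 ≤ finrank F (LinearMap.ker N) := Submodule.one_le_finrank_iff.2 h2
      omega
    have hrn := LinearMap.finrank_range_add_finrank_ker N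
    rw [hker, hn8] at hrn
    rw [show finrank F (LinearMap.range N) = 7 by omega] at heven
    exact absurd heven (by decide)
  refine Or.inr (symp_eight_key hn8 hB ha rfl rfl _ fun c e hc he hd' => ?_)
  have h2P : 2 * P ∣ 2 ^ c := by
    rw [hP, ← pow_succ']
    refine pow_dvd_pow 2 ?_
    have : 2 ^ v < 2 ^ c := lt_of_lt_of_le (lt_of_le_of_ne hPd hPne) hd'
    exact (Nat.pow_lt_pow_iff_right (by norm_num)).1 this
  have hEP : Nat.Coprime E P :=
    (Nat.Coprime.pow_left _ (Nat.coprime_ordCompl Nat.prime_two hA0.ne')).symm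
  have h2 : A ∣ P * e := orderOf_dvd_of_pow_eq_one (by rw [pow_mul]; exact he)
  have hEe : E ∣ e := hEP.dvd_of_dvd_mul_left ((Dvd.intro_left _ hPE : E ∣ A).trans h2)
  rw [← hPE, ← mul_assoc]
  exact mul_dvd_mul h2P hEe

end Cfsg.Agent.SpecEight
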